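import Mathlib.GroupTheory.Nilpotent
import Mathlib.Tactic.LinearCombination
import Cfsg.Agent.H777.M5.CGDef
import Cfsg.Agent.H411.M5.Syl

/-!
# `C_{PG}(Z_2(PG)) ≅ CG` (helper411, task M5-F of S5232)
-/

set_option autoImplicit false
set_option linter.unusedSimpArgs false

namespace Cfsg.Agent.H411.M5

open Matrix
open scoped commutatorElement
open Cfsg.Agent.H777.M5

theorem h5 : (5 : ZMod 5) = 0 := by decide

/-- the matrix of `a ^ i b ^ j` as a polynomial in `i`, `j` -/
def matP (i j : ZMod 5) : Matrix (Fin 6) (Fin 6) (ZMod 5) :=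
  !![1, j, -(i ^ 2) - 2 * (j ^ 2), -(i), -(i * j), 2 * (i * j ^ 2) + 2 * (i ^ 3);
     0, 1, j, 0, -(i), -(i * j);
     0, 0, 1, 0, 0, -(i);
     0, 0, 2 * (i), 1, j, -(i ^ 2) - 2 * (j ^ 2);
     0, 0, 0, 0, 1, j;
     0, 0, 0, 0, 0, 1]

theorem mat_eq : ∀ i j : ZMod 5, mat i j = matP i j := by decide +kernel

theorem act0 (i j : ZMod 5) (v : V6) : act i j v 0 = v 0 + (j) * v 1 + (-(i ^ 2) - 2 * (j ^ 2)) * v 2 + (-(i)) * v 3 + (-(i * j)) * v 4 + (2 * (i * j ^ 2) + 2 * (i ^ 3)) * v 5 := by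
  rw [act, mat_eq]
  simp only [matP, mulVec, dotProduct, Fin.sum_univ_six, of_apply, cons_val', cons_val_zero, cons_val_one, cons_val,
    empty_val', cons_val_fin_one]
  ring

theorem act1 (i j : ZMod 5) (v : V6) : act i j v 1 = v 1 + (j) * v 2 + (-(i)) * v 4 + (-(i * j)) * v 5 := by
  rw [act, mat_eq]
  simp only [matP, mulVec, dotProduct, Fin.sum_univ_six, of_apply, cons_val', cons_val_zero, cons_val_one, cons_val,
    empty_val', cons_val_fin_one]
  ring

theorem act2 (i j : ZMod 5) (v : V6) : act i j v 2 = v 2 + (-(i)) * v 5 := by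
  rw [act, mat_eq]
  simp only [matP, mulVec, dotProduct, Fin.sum_univ_six, of_apply, cons_val', cons_val_zero, cons_val_one, cons_val,
    empty_val', cons_val_fin_one]
  ring

theorem act3 (i j : ZMod 5) (v : V6) : act i j v 3 = (2 * (i)) * v 2 + v 3 + (j) * v 4 + (-(i ^ 2) - 2 * (j ^ 2)) * v 5 := by
  rw [act, mat_eq]
  simp only [matP, mulVec, dotProduct, Fin.sum_univ_six, of_apply, cons_val', cons_val_zero, cons_val_one, cons_val,
    empty_val', cons_val_fin_one]
  ring

theorem act4 (i j : ZMod 5) (v : V6) : act i j v 4 = v 4 + (j) * v 5 := by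
  rw [act, mat_eq]
  simp only [matP, mulVec, dotProduct, Fin.sum_univ_six, of_apply, cons_val', cons_val_zero, cons_val_one, cons_val,
    empty_val', cons_val_fin_one]
  ring

theorem act5 (i j : ZMod 5) (v : V6) : act i j v 5 = v 5 := by
  rw [act, mat_eq]
  simp only [matP, mulVec, dotProduct, Fin.sum_univ_six, of_apply, cons_val', cons_val_zero, cons_val_one, cons_val,
    empty_val', cons_val_fin_one]
  ring

/-- coordinate 0 -/
def f0 (x : CG) : ZMod 5 :=
  -(2 * (x.al.im)) + 2 * (x.al.re) + 2 * (x.be.im) - 2 * (x.be.re) - 2 * (x.de.re) + x.ga.re + x.al.im * x.be.im -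
    2 * (x.al.im ^ 2) + 2 * (x.al.re * x.be.re) - x.al.re ^ 2 + 2 * (x.be.im ^ 2) + x.be.re ^ 2 - 2 * (x.al.im *
    x.al.re * x.be.im) - 2 * (x.al.im * x.be.im * x.be.re) - x.al.im ^ 2 * x.al.re + x.al.im ^ 2 * x.be.re +
    x.al.re * x.be.im ^ 2 - 2 * (x.al.re * x.be.re ^ 2) - 2 * (x.al.re ^ 2 * x.be.re) - x.al.re ^ 3 + x.be.im ^
    2 * x.be.re + x.be.re ^ 3

/-- coordinate 1 -/
def f1 (x : CG) : ZMod 5 :=
  -(2 * (x.al.re)) + 2 * (x.be.re) - 2 * (x.ga.re) - 2 * (x.al.im * x.be.im) - x.al.im ^ 2 + x.al.re * x.be.re + 2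
    * (x.al.re ^ 2) + x.be.im ^ 2 - 2 * (x.be.re ^ 2)

/-- coordinate 2 -/
def f2 (x : CG) : ZMod 5 :=
  -(x.al.re) + x.be.re

/-- coordinate 3 -/
def f3 (x : CG) : ZMod 5 :=
  2 * (x.al.im) + 2 * (x.be.im) - 2 * (x.ga.im) + x.al.im * x.al.re - x.al.im * x.be.re + x.al.re * x.be.im +
    x.be.im * x.be.re

/-- coordinate 4 -/
def f4 (x : CG) : ZMod 5 :=
  x.al.im + x.be.im

/-- coordinate `c` -/
def fc (x : CG) : ZMod 5 :=
  -(2 * (x.al.im)) + 2 * (x.be.im) - 2 * (x.de.im) + x.al.im * x.ga.re - x.al.re * x.ga.im + x.be.im * x.ga.re +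
    x.be.re * x.ga.im - 2 * (x.al.im * x.al.re * x.be.re) + x.al.im * x.al.re ^ 2 - 2 * (x.al.im * x.be.im ^ 2)
    - x.al.im * x.be.re ^ 2 + 2 * (x.al.im ^ 2 * x.be.im) - x.al.im ^ 3 + 2 * (x.al.re * x.be.im * x.be.re) +
    x.al.re ^ 2 * x.be.im - x.be.im * x.be.re ^ 2 + x.be.im ^ 3

/-- the map `CG → PG` -/
def phi (x : CG) : PG where
  v := ![f0 x, f1 x, f2 x, f3 x, f4 x, 0]
  c := fc x
  i := 2 * (x.al.im) - 2 * (x.be.im)
  j := x.al.re + x.be.re

theorem phi_v0 (x : CG) : (phi x).v 0 = f0 x := rfl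
theorem phi_v1 (x : CG) : (phi x).v 1 = f1 x := rfl
theorem phi_v2 (x : CG) : (phi x).v 2 = f2 x := rfl
theorem phi_v3 (x : CG) : (phi x).v 3 = f3 x := rfl
theorem phi_v4 (x : CG) : (phi x).v 4 = f4 x := rfl
theorem phi_v5 (x : CG) : (phi x).v 5 = 0 := rfl
theorem phi_c (x : CG) : (phi x).c = fc x := rfl
theorem phi_i (x : CG) : (phi x).i = 2 * (x.al.im) - 2 * (x.be.im) := rfl
theorem phi_j (x : CG) : (phi x).j = x.al.re + x.be.re := rfl

theorem three_re : (3 : K25).re = 3 := by decide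
theorem three_im : (3 : K25).im = 0 := by decide

theorem phi_mul (x y : CG) : phi (x * y) = phi x * phi y := by
  apply PG.ext
  · funext k
    rw [PG.mul_v, Pi.add_apply]
    fin_cases k
    · show (phi (x * y)).v 0 = (phi x).v 0 + act (phi x).i (phi x).j (phi y).v 0
      rw [act0]
      simp only [phi_v0, phi_v1, phi_v2, phi_v3, phi_v4, phi_v5, phi_i, phi_j, f0, f1, f2, f3, f4,
        CG.mul_al, CG.mul_ga, CG.mul_de, CG.mul_be, K25.add_re, K25.add_im, K25.mul_re, K25.mul_im, K25.cj_re, K25.cj_im, three_re, three_im, pow_two]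
      linear_combination (-(y.al.im * x.be.im) + y.al.re * x.be.re + x.al.im * y.be.im + 4 * (y.al.im * y.al.re * x.be.im) + 4 * (y.al.im
        * x.be.im * x.be.re) - 2 * (y.al.im ^ 2 * x.be.re) + 2 * (y.al.re * x.al.im * x.be.im) - y.al.re *
        x.al.im ^ 2 - y.al.re * x.al.re * y.be.re - 2 * (y.al.re * x.al.re * x.be.re) - y.al.re * x.al.re ^ 2 -
        y.al.re * y.be.re * x.be.re - 3 * (y.al.re * x.be.im ^ 2) - 2 * (y.al.re * x.be.re ^ 2) - y.al.re ^ 2 *
        x.al.re - 2 * (y.al.re ^ 2 * x.be.re) - 2 * (x.al.im * y.be.re * x.be.im) + x.al.im ^ 2 * y.be.re +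
        y.be.re * x.be.im ^ 2 + y.be.re * x.be.re ^ 2 + y.be.re ^ 2 * x.be.re) * h5
    · show (phi (x * y)).v 1 = (phi x).v 1 + act (phi x).i (phi x).j (phi y).v 1
      rw [act1]
      simp only [phi_v0, phi_v1, phi_v2, phi_v3, phi_v4, phi_v5, phi_i, phi_j, f0, f1, f2, f3, f4,
        CG.mul_al, CG.mul_ga, CG.mul_de, CG.mul_be, K25.add_re, K25.add_im, K25.mul_re, K25.mul_im, K25.cj_re, K25.cj_im, three_re, three_im, pow_two]
      linear_combination (y.al.re * x.al.re - y.be.re * x.be.re) * h5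
    · show (phi (x * y)).v 2 = (phi x).v 2 + act (phi x).i (phi x).j (phi y).v 2
      rw [act2]
      simp only [phi_v0, phi_v1, phi_v2, phi_v3, phi_v4, phi_v5, phi_i, phi_j, f0, f1, f2, f3, f4,
        CG.mul_al, CG.mul_ga, CG.mul_de, CG.mul_be, K25.add_re, K25.add_im, K25.mul_re, K25.mul_im, K25.cj_re, K25.cj_im, three_re, three_im, pow_two]
      linear_combination (0) * h5
    · show (phi (x * y)).v 3 = (phi x).v 3 + act (phi x).i (phi x).j (phi y).v 3
      rw [act3]
      simp only [phi_v0, phi_v1, phi_v2, phi_v3, phi_v4, phi_v5, phi_i, phi_j, f0, f1, f2, f3, f4,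
        CG.mul_al, CG.mul_ga, CG.mul_de, CG.mul_be, K25.add_re, K25.add_im, K25.mul_re, K25.mul_im, K25.cj_re, K25.cj_im, three_re, three_im, pow_two]
      linear_combination (y.al.re * x.al.im - y.al.re * x.be.im - x.al.im * y.be.re + y.be.re * x.be.im) * h5
    · show (phi (x * y)).v 4 = (phi x).v 4 + act (phi x).i (phi x).j (phi y).v 4
      rw [act4]
      simp only [phi_v0, phi_v1, phi_v2, phi_v3, phi_v4, phi_v5, phi_i, phi_j, f0, f1, f2, f3, f4,
        CG.mul_al, CG.mul_ga, CG.mul_de, CG.mul_be, K25.add_re, K25.add_im, K25.mul_re, K25.mul_im, K25.cj_re, K25.cj_im, three_re, three_im, pow_two]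
      linear_combination (0) * h5
    · show (phi (x * y)).v 5 = (phi x).v 5 + act (phi x).i (phi x).j (phi y).v 5
      rw [act5]
      simp only [phi_v0, phi_v1, phi_v2, phi_v3, phi_v4, phi_v5, phi_i, phi_j, f0, f1, f2, f3, f4,
        CG.mul_al, CG.mul_ga, CG.mul_de, CG.mul_be, K25.add_re, K25.add_im, K25.mul_re, K25.mul_im, K25.cj_re, K25.cj_im, three_re, three_im, pow_two]
      linear_combination (0) * h5
  · rw [PG.mul_c, om, act0, act1, act2, act3, act4, act5]
    simp only [phi_v0, phi_v1, phi_v2, phi_v3, phi_v4, phi_v5, phi_c, phi_i, phi_j, f0, f1, f2, f3, f4, fc,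
      CG.mul_al, CG.mul_ga, CG.mul_de, CG.mul_be, K25.add_re, K25.add_im, K25.mul_re, K25.mul_im, K25.cj_re, K25.cj_im, three_re, three_im, pow_two]
    linear_combination (-(y.al.im * x.ga.re) + y.al.re * x.ga.im + x.al.im * y.ga.re - x.al.re * y.ga.im - y.be.im * x.ga.re - y.be.re *
      x.ga.im + x.be.im * y.ga.re + x.be.re * y.ga.im + y.al.im * y.al.re * x.al.re - 3 * (y.al.im * y.al.re *
      x.be.re) + 2 * (y.al.im * x.al.im * y.be.im) - y.al.im * x.al.re * y.be.re + 2 * (y.al.im * x.al.re ^ 2) +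
      y.al.im * x.be.im ^ 2 - y.al.im * x.be.re ^ 2 + 3 * (y.al.im ^ 2 * x.be.im) - 2 * (y.al.re * x.al.im *
      x.al.re) - y.al.re * x.al.im * y.be.re + 3 * (y.al.re * x.al.im * x.be.re) + y.al.re * x.al.re * y.be.im +
      3 * (y.al.re * x.al.re * x.be.im) - 4 * (y.al.re * x.be.im * x.be.re) - y.al.re ^ 2 * x.al.im + 2 *
      (x.al.im * x.al.re * y.be.re) - 2 * (x.al.im * y.be.im * x.be.im) - x.al.im * y.be.im ^ 2 - 4 * (x.al.im *
      y.be.re * x.be.re) + x.al.im * y.be.re ^ 2 + x.al.im ^ 2 * y.be.im + x.al.re * y.be.im * y.be.re + x.al.re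
      * y.be.im * x.be.re - 2 * (x.al.re * y.be.re * x.be.im) + 2 * (x.al.re ^ 2 * y.be.im) - y.be.im * y.be.re
      * x.be.re - 2 * (y.be.im * x.be.re ^ 2) + 2 * (y.be.re * x.be.im * x.be.re) + y.be.re ^ 2 * x.be.im) * h5
  · rw [PG.mul_i]
    simp only [phi_i, CG.mul_al, CG.mul_ga, CG.mul_de, CG.mul_be, K25.add_re, K25.add_im, K25.mul_re, K25.mul_im, K25.cj_re, K25.cj_im, three_re, three_im, pow_two]
    ring
  · rw [PG.mul_j]
    simp only [phi_j, CG.mul_al, CG.mul_ga, CG.mul_de, CG.mul_be, K25.add_re, K25.add_im, K25.mul_re, K25.mul_im, K25.cj_re, K25.cj_im, three_re, three_im, pow_two]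
    ring


/-- the homomorphism `CG →* PG` -/
def phiHom : CG →* PG := MonoidHom.mk' phi phi_mul

@[simp] theorem phiHom_apply (x : CG) : phiHom x = phi x := rfl

theorem lin2 : ∀ a b : ZMod 5, -a + b = 0 → a + b = 0 → a = 0 ∧ b = 0 := by decide
theorem lin2' : ∀ a b : ZMod 5, a + b = 0 → 2 * a - 2 * b = 0 → a = 0 ∧ b = 0 := by decide

theorem phiHom_injective : Function.Injective phiHom := by
  rw [injective_iff_map_eq_one]
  intro x hx
  rw [phiHom_apply] at hx
  have e0 : f0 x = 0 := by rw [← phi_v0, hx]; rfl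
  have e1 : f1 x = 0 := by rw [← phi_v1, hx]; rfl
  have e2 : f2 x = 0 := by rw [← phi_v2, hx]; rfl
  have e3 : f3 x = 0 := by rw [← phi_v3, hx]; rfl
  have e4 : f4 x = 0 := by rw [← phi_v4, hx]; rfl
  have ec : fc x = 0 := by rw [← phi_c, hx]; rfl
  have ei : 2 * x.al.im - 2 * x.be.im = 0 := by rw [← phi_i, hx]; rfl
  have ej : x.al.re + x.be.re = 0 := by rw [← phi_j, hx]; rfl
  obtain ⟨a1, b1⟩ := lin2 _ _ e2 ej
  obtain ⟨a2, b2⟩ := lin2' _ _ e4 ei
  simp only [f1, f3, f0, fc, a1, b1, a2, b2] at e0 e1 e3 ec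
  have g1 : x.ga.re = 0 := by linear_combination 2 * e1 + x.ga.re * h5
  have g2 : x.ga.im = 0 := by linear_combination 2 * e3 + x.ga.im * h5
  rw [g1] at e0 ec
  rw [g2] at ec
  have d1 : x.de.re = 0 := by linear_combination 2 * e0 + x.de.re * h5
  have d2 : x.de.im = 0 := by linear_combination 2 * ec + x.de.im * h5
  exact CG.ext (K25.ext a1 a2) (K25.ext g1 g2) (K25.ext d1 d2) (K25.ext b1 b2)

/-- the coordinate `v 5` is a homomorphism -/
def lastHom : PG →* Multiplicative (ZMod 5) where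
  toFun g := Multiplicative.ofAdd (g.v 5)
  map_one' := rfl
  map_mul' g h := by
    rw [← ofAdd_add, PG.mul_v, Pi.add_apply, act5]

theorem mem_ker {g : PG} : g ∈ lastHom.ker ↔ g.v 5 = 0 := Iff.rfl

theorem card_CG : Nat.card CG = 5 ^ 8 := by
  have h : Nat.card K25 = 25 := by rw [Nat.card_eq_fintype_card, K25.card_K]
  rw [Nat.card_congr CG.equivProd, Nat.card_prod, Nat.card_prod, Nat.card_prod, h]
  norm_num

theorem lastHom_surjective : Function.Surjective lastHom := by
  intro t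
  refine ⟨⟨Pi.single 5 t.toAdd, 0, 0, 0⟩, ?_⟩
  show Multiplicative.ofAdd ((Pi.single 5 t.toAdd : V6) 5) = t
  rw [Pi.single_eq_same, ofAdd_toAdd]

theorem card_ker : Nat.card lastHom.ker = 5 ^ 8 := by
  have h1 := lastHom.ker.card_mul_index
  rw [Subgroup.index_ker, PG.card_PG, MonoidHom.range_eq_top.2 lastHom_surjective, Subgroup.card_top,
    Nat.card_congr Multiplicative.toAdd, Nat.card_zmod] at h1
  omega

theorem range_phiHom : phiHom.range = lastHom.ker := by
  apply Subgroup.eq_of_le_of_card_ge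
  · rintro _ ⟨x, rfl⟩
    exact phi_v5 x
  · rw [card_ker, ← card_CG]
    exact (Nat.card_congr (MonoidHom.ofInjective phiHom_injective).toEquiv).le

/-! ### the upper central series of `PG` -/

theorem om_single_zero (v : V6) (c : ZMod 5) : om v (Pi.single 0 c) = -(v 5 * c) := by
  simp [om]

theorem mem_center {g : PG} : g ∈ Subgroup.center PG ↔ g.v = 0 ∧ g.i = 0 ∧ g.j = 0 := by
  rw [Subgroup.mem_center_iff]
  constructor
  · intro h
    have key : ∀ u : V6, act g.i g.j u = u ∧ om g.v u = 0 := by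
      intro u
      have h1 := h ⟨u, 0, 0, 0⟩
      have h2 := congrArg PG.v h1
      have h3 := congrArg PG.c h1
      simp only [PG.mul_v, PG.mul_c, act_one] at h2 h3
      have h4 : act g.i g.j u = u := by
        have : g.v + u = g.v + act g.i g.j u := by rw [← h2, add_comm]
        exact (add_left_cancel this).symm
      refine ⟨h4, ?_⟩
      rw [h4, om_swap g.v u] at h3
      linear_combination -h3 - om g.v u * h5
    obtain ⟨hi, hj⟩ := act_eq fun u => (key u).1
    exact ⟨om_nondeg fun u => (key u).2, hi, hj⟩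
  · rintro ⟨hv, hi, hj⟩ h
    apply PG.ext
    · simp only [PG.mul_v, hv, hi, hj, act_one, act_zero, zero_add, add_zero]
    · simp only [PG.mul_c, hv, hi, hj, act_one, act_zero, om_zero_left, om_zero_right, mul_zero, add_zero, add_comm]
    · simp only [PG.mul_i, hi, zero_add, add_zero]
    · simp only [PG.mul_j, hj, zero_add, add_zero]

theorem comm_mem_center {g h : PG} : ⁅g, h⁆ ∈ Subgroup.center PG ↔ (g * h).v = (h * g).v := by
  rw [mem_center]
  have e : ⁅g, h⁆ * (h * g) = g * h := by rw [commutatorElement_def]; group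
  have ei : (⁅g, h⁆ : PG).i = 0 := by
    have := congrArg PG.i e
    simp only [PG.mul_i] at this
    linear_combination this
  have ej : (⁅g, h⁆ : PG).j = 0 := by
    have := congrArg PG.j e
    simp only [PG.mul_j] at this
    linear_combination this
  have ev : (⁅g, h⁆ : PG).v + (h * g).v = (g * h).v := by
    have := congrArg PG.v e
    rw [PG.mul_v, ei, ej, act_one] at this
    exact this
  rw [← ev]
  constructor
  · rintro ⟨h1, -, -⟩
    rw [h1, zero_add]
  · intro h1
    exact ⟨by simpa using h1, ei, ej⟩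

theorem act_single_zero (i j c : ZMod 5) : act i j (Pi.single 0 c) = Pi.single 0 c := by
  funext k
  fin_cases k
  · show act i j (Pi.single 0 c) 0 = _
    rw [act0]; simp
  · show act i j (Pi.single 0 c) 1 = _
    rw [act1]; simp
  · show act i j (Pi.single 0 c) 2 = _
    rw [act2]; simp
  · show act i j (Pi.single 0 c) 3 = _
    rw [act3]; simp
  · show act i j (Pi.single 0 c) 4 = _
    rw [act4]; simp
  · show act i j (Pi.single 0 c) 5 = _
    rw [act5]; simp

theorem mem_Z2 {g : PG} : g ∈ Subgroup.upperCentralSeries PG 2 ↔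
    (∃ c, g.v = Pi.single 0 c) ∧ g.i = 0 ∧ g.j = 0 := by
  rw [Subgroup.mem_upperCentralSeries_succ_iff, Subgroup.upperCentralSeries_one]
  simp only [comm_mem_center, PG.mul_v]
  constructor
  · intro h
    have hij : ∀ u, act g.i g.j u = u := by
      intro u
      have := h ⟨u, 0, 0, 0⟩
      simp only [act_one] at this
      rw [add_comm u] at this
      exact add_left_cancel this
    obtain ⟨hi, hj⟩ := act_eq hij
    have ha : ∀ i j, act i j g.v = g.v := by
      intro i j
      have := h ⟨0, 0, i, j⟩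
      simp only [act_zero, add_zero, zero_add] at this
      exact this.symm
    refine ⟨⟨g.v 0, ?_⟩, hi, hj⟩
    have b1 := congrFun (ha 0 1) 1
    have b0 := congrFun (ha 0 1) 0
    have b4 := congrFun (ha 0 1) 4
    have b3 := congrFun (ha 0 1) 3
    have a0 := congrFun (ha 1 0) 0
    rw [act1] at b1
    rw [act0] at b0 a0
    rw [act4] at b4
    rw [act3] at b3
    have v5 : g.v 5 = 0 := by linear_combination b4
    have v2 : g.v 2 = 0 := by rw [v5] at b1; linear_combination b1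
    have v1 : g.v 1 = 0 := by rw [v5, v2] at b0; linear_combination b0
    have v4 : g.v 4 = 0 := by rw [v5, v2] at b3; linear_combination b3
    have v3 : g.v 3 = 0 := by rw [v5, v2, v1, v4] at a0; linear_combination -a0
    funext k
    fin_cases k
    · simp
    · simpa using v1
    · simpa using v2
    · simpa using v3
    · simpa using v4
    · simpa using v5
  · rintro ⟨⟨c, hc⟩, hi, hj⟩ h
    rw [hc, hi, hj, act_one, act_single_zero, add_comm]

theorem mem_centralizer_Z2 {h : PG} :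
    h ∈ Subgroup.centralizer ((Subgroup.upperCentralSeries PG 2 : Subgroup PG) : Set PG) ↔ h.v 5 = 0 := by
  rw [Subgroup.mem_centralizer_iff]
  constructor
  · intro H
    have h1 := congrArg PG.c (H ⟨Pi.single 0 1, 0, 0, 0⟩ (mem_Z2.2 ⟨⟨1, rfl⟩, rfl, rfl⟩))
    simp only [PG.mul_c, act_one, act_single_zero, om_single_zero] at h1
    rw [om_swap h.v, om_single_zero] at h1
    linear_combination h1 - h.v 5 * h5
  · rintro hv g hg
    obtain ⟨⟨c, hc⟩, hi, hj⟩ := mem_Z2.1 hg
    apply PG.ext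
    · rw [PG.mul_v, PG.mul_v, hc, hi, hj, act_one, act_single_zero, add_comm]
    · rw [PG.mul_c, PG.mul_c, hc, hi, hj, act_one, act_single_zero, om_swap h.v, om_single_zero, hv]
      ring
    · rw [PG.mul_i, PG.mul_i, add_comm]
    · rw [PG.mul_j, PG.mul_j, add_comm]

theorem centralizer_Z2_eq :
    Subgroup.centralizer ((Subgroup.upperCentralSeries PG 2 : Subgroup PG) : Set PG) = phiHom.range := by
  rw [range_phiHom]
  ext h
  rw [mem_centralizer_Z2, mem_ker]

/-- **M5-F** -/
noncomputable def equivCG :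
    CG ≃* ↥(Subgroup.centralizer ((Subgroup.upperCentralSeries PG 2 : Subgroup PG) : Set PG)) :=
  (MonoidHom.ofInjective phiHom_injective).trans (MulEquiv.subgroupCongr centralizer_Z2_eq.symm)

theorem exists_equiv_CG :
    Nonempty (CG ≃* ↥(Subgroup.centralizer ((Subgroup.upperCentralSeries PG 2 : Subgroup PG) : Set PG))) :=
  ⟨equivCG⟩

end Cfsg.Agent.H411.M5
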