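import Mathlib.LinearAlgebra.BilinearForm.Orthogonal
import Mathlib.Algebra.Module.ZMod
import Mathlib.Algebra.Field.ZMod
import Mathlib.FieldTheory.Finiteness
import Cfsg.Agent.H411.M5.Cent

/-!
# Abelian subgroups of `PG` have order at most `5 ^ 4` (helper411, for S5230)
-/

set_option autoImplicit false

namespace Cfsg.Agent.H411.M5

open Module
open Cfsg.Agent.H777.M5

instance fact5 : Fact (Nat.Prime 5) := ⟨Nat.prime_five⟩

/-- `om` as a bilinear form -/
def omB : LinearMap.BilinForm (ZMod 5) V6 :=
  LinearMap.mk₂ (ZMod 5) om om_add_left om_smul_left om_add_right om_smul_right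

theorem omB_apply (u v : V6) : omB u v = om u v := rfl

theorem omB_ker : LinearMap.ker omB = ⊥ := by
  rw [eq_bot_iff]
  intro u hu
  rw [LinearMap.mem_ker] at hu
  exact (Submodule.mem_bot _).2 (om_nondeg fun v => by rw [← omB_apply, hu]; rfl)

/-- isotropic subspaces -/
theorem card_isotropic (U : AddSubgroup V6) (h : ∀ u ∈ U, ∀ v ∈ U, om u v = 0) : Nat.card U ≤ 5 ^ 3 := by
  have e0 : ∀ u, u ∈ AddSubgroup.toZModSubmodule 5 U ↔ u ∈ U := fun u => Iff.rfl
  generalize hW : AddSubgroup.toZModSubmodule 5 U = W at e0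
  have h1 : finrank (ZMod 5) W + finrank (ZMod 5) (omB.orthogonal W) = 6 := by
    have h2 := LinearMap.BilinForm.finrank_add_finrank_orthogonal' (B := omB) W
    rw [omB_ker, inf_bot_eq, finrank_bot, add_zero, Module.finrank_fintype_fun_eq_card, Fintype.card_fin] at h2
    exact h2
  have h2 : W ≤ omB.orthogonal W := by
    intro u hu
    rw [LinearMap.BilinForm.mem_orthogonal_iff]
    intro v hv
    exact h v ((e0 v).1 hv) u ((e0 u).1 hu)
  have h3 := Submodule.finrank_mono h2
  have h4 : Nat.card U = Nat.card W := Nat.card_congr (Equiv.subtypeEquivRight fun u => (e0 u).symm)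
  rw [h4, Module.natCard_eq_pow_finrank (K := ZMod 5), Nat.card_zmod]
  exact Nat.pow_le_pow_right (by norm_num) (by omega)

/-- the homomorphism `g ↦ (i, j)` -/
def ijHom : PG →* Multiplicative (ZMod 5 × ZMod 5) where
  toFun g := Multiplicative.ofAdd (g.i, g.j)
  map_one' := rfl
  map_mul' g h := by rw [← ofAdd_add]; rfl

theorem ijHom_eq_one {g : PG} : ijHom g = 1 ↔ g.i = 0 ∧ g.j = 0 := by
  constructor
  · intro h
    have h1 : ((g.i, g.j) : ZMod 5 × ZMod 5) = (0, 0) := h
    exact ⟨congrArg Prod.fst h1, congrArg Prod.snd h1⟩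
  · rintro ⟨h1, h2⟩
    show Multiplicative.ofAdd (g.i, g.j) = 1
    rw [h1, h2]; rfl

/-- the fixed vectors of `a ^ i b ^ j` -/
theorem fix_eq {i j : ZMod 5} (hij : ¬ (i = 0 ∧ j = 0)) {v : V6} (h : act i j v = v) :
    v 5 = 0 ∧ v 2 = 0 ∧ v 4 = 0 ∧ j * v 1 = i * v 3 := by
  have e0 := congrFun h 0
  have e1 := congrFun h 1
  have e2 := congrFun h 2
  have e3 := congrFun h 3
  have e4 := congrFun h 4
  rw [act0] at e0
  rw [act1] at e1
  rw [act2] at e2
  rw [act3] at e3
  rw [act4] at e4
  have v5 : v 5 = 0 := by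
    by_cases hi : i = 0
    · have hj : j ≠ 0 := fun hj => hij ⟨hi, hj⟩
      have : j * v 5 = 0 := by linear_combination e4
      exact (mul_eq_zero.1 this).resolve_left hj
    · have : i * v 5 = 0 := by linear_combination -e2
      exact (mul_eq_zero.1 this).resolve_left hi
  rw [v5] at e0 e1 e3
  have hd : j * j + 2 * (i * i) ≠ 0 := by
    revert hij
    generalize i = i', j = j'
    revert i' j'
    decide
  have f1 : j * v 2 = i * v 4 := by linear_combination e1
  have f3 : 2 * i * v 2 + j * v 4 = 0 := by linear_combination e3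
  have v2 : v 2 = 0 := by
    have : (j * j + 2 * (i * i)) * v 2 = 0 := by linear_combination j * f1 + i * f3
    exact (mul_eq_zero.1 this).resolve_left hd
  have v4 : v 4 = 0 := by
    have : (j * j + 2 * (i * i)) * v 4 = 0 := by linear_combination -2 * i * f1 + j * f3
    exact (mul_eq_zero.1 this).resolve_left hd
  rw [v2, v4] at e0
  exact ⟨v5, v2, v4, by linear_combination e0⟩

theorem comm_fix {g y : PG} (hi : g.i = 0) (hj : g.j = 0) (h : g * y = y * g) : act y.i y.j g.v = g.v := by
  have h1 := congrArg PG.v h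
  rw [PG.mul_v, PG.mul_v, hi, hj, act_one, add_comm] at h1
  exact (add_left_cancel h1).symm

theorem comm_om {g h : PG} (hi : g.i = 0) (hj : g.j = 0) (hi' : h.i = 0) (hj' : h.j = 0) (H : g * h = h * g) :
    om g.v h.v = 0 := by
  have h1 := congrArg PG.c H
  rw [PG.mul_c, PG.mul_c, hi, hj, hi', hj', act_one, act_one, om_swap g.v h.v] at h1
  linear_combination h1 - om g.v h.v * h5

/-- **Abelian subgroups of `PG`.** -/
theorem card_le_of_comm_PG (A : Subgroup PG) (hA : ∀ x ∈ A, ∀ y ∈ A, x * y = y * x) : Nat.card A ≤ 5 ^ 4 := by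
  classical
  let f : ↥A →* Multiplicative (ZMod 5 × ZMod 5) := ijHom.comp A.subtype
  have hf : ∀ g : ↥A, g ∈ f.ker ↔ (g : PG).i = 0 ∧ (g : PG).j = 0 := fun g => ijHom_eq_one
  have hcard : Nat.card A = Nat.card f.range * Nat.card f.ker := by
    rw [← Subgroup.card_mul_index f.ker, Subgroup.index_ker, mul_comm]
  rw [hcard]
  by_cases hne : ∃ y ∈ A, ¬ (y.i = 0 ∧ y.j = 0)
  · obtain ⟨y, hy, hyij⟩ := hne
    by_cases hr : Nat.card f.range ≤ 5
    · -- order 5
      have h1 : Nat.card f.ker ≤ 125 := by
        rcases eq_or_ne y.i 0 with hi | hi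
        · have hj : y.j ≠ 0 := fun hj => hyij ⟨hi, hj⟩
          let φ : f.ker → ZMod 5 × ZMod 5 × ZMod 5 := fun g => (g.1.1.v 0, g.1.1.v 3, g.1.1.c)
          have hφ : Function.Injective φ := by
            intro g h hgh
            obtain ⟨gi, gj⟩ := (hf g.1).1 g.2
            obtain ⟨hi', hj'⟩ := (hf h.1).1 h.2
            obtain ⟨g5, g2, g4, g1⟩ := fix_eq hyij (comm_fix gi gj (hA _ g.1.2 _ hy))
            obtain ⟨h5', h2, h4, h1⟩ := fix_eq hyij (comm_fix hi' hj' (hA _ h.1.2 _ hy))
            rw [hi, zero_mul] at g1 h1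
            have g1' := (mul_eq_zero.1 g1).resolve_left hj
            have h1' := (mul_eq_zero.1 h1).resolve_left hj
            have k0 : g.1.1.v 0 = h.1.1.v 0 := congrArg Prod.fst hgh
            have k3 : g.1.1.v 3 = h.1.1.v 3 := congrArg (fun p => p.2.1) hgh
            have kc : g.1.1.c = h.1.1.c := congrArg (fun p => p.2.2) hgh
            apply Subtype.ext
            apply Subtype.ext
            refine PG.ext ?_ kc (gi.trans hi'.symm) (gj.trans hj'.symm)
            funext k
            fin_cases k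
            · exact k0
            · exact g1'.trans h1'.symm
            · exact g2.trans h2.symm
            · exact k3
            · exact g4.trans h4.symm
            · exact g5.trans h5'.symm
          have := Nat.card_le_card_of_injective φ hφ
          simpa [Nat.card_prod] using this
        · let φ : f.ker → ZMod 5 × ZMod 5 × ZMod 5 := fun g => (g.1.1.v 0, g.1.1.v 1, g.1.1.c)
          have hφ : Function.Injective φ := by
            intro g h hgh
            obtain ⟨gi, gj⟩ := (hf g.1).1 g.2
            obtain ⟨hi', hj'⟩ := (hf h.1).1 h.2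
            obtain ⟨g5, g2, g4, g1⟩ := fix_eq hyij (comm_fix gi gj (hA _ g.1.2 _ hy))
            obtain ⟨h5', h2, h4, h1⟩ := fix_eq hyij (comm_fix hi' hj' (hA _ h.1.2 _ hy))
            have k0 : g.1.1.v 0 = h.1.1.v 0 := congrArg Prod.fst hgh
            have k1 : g.1.1.v 1 = h.1.1.v 1 := congrArg (fun p => p.2.1) hgh
            have kc : g.1.1.c = h.1.1.c := congrArg (fun p => p.2.2) hgh
            have k3 : g.1.1.v 3 = h.1.1.v 3 := mul_left_cancel₀ hi (by rw [← g1, ← h1, k1])
            apply Subtype.ext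
            apply Subtype.ext
            refine PG.ext ?_ kc (gi.trans hi'.symm) (gj.trans hj'.symm)
            funext k
            fin_cases k
            · exact k0
            · exact k1
            · exact g2.trans h2.symm
            · exact k3
            · exact g4.trans h4.symm
            · exact g5.trans h5'.symm
          have := Nat.card_le_card_of_injective φ hφ
          simpa [Nat.card_prod] using this
      calc Nat.card f.range * Nat.card f.ker ≤ 5 * 125 := Nat.mul_le_mul hr h1
        _ = 5 ^ 4 := by norm_num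
    · -- order 25
      have hM : Nat.card (Multiplicative (ZMod 5 × ZMod 5)) = 25 := by
        rw [Nat.card_congr Multiplicative.toAdd, Nat.card_prod, Nat.card_zmod]
      have hd : Nat.card f.range ∣ 25 := hM ▸ Subgroup.card_subgroup_dvd_card _
      have h25 : Nat.card f.range = 25 := by
        have hd' : Nat.card f.range ∣ 5 ^ 2 := hd
        obtain ⟨k, hk, hk'⟩ := (Nat.dvd_prime_pow Nat.prime_five).1 hd'
        interval_cases k
        · rw [pow_zero] at hk'; omega
        · rw [pow_one] at hk'; omega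
        · simpa using hk'
      have htop : f.range = ⊤ := Subgroup.eq_top_of_card_eq _ (by rw [h25, hM])
      have hsurj := MonoidHom.range_eq_top.1 htop
      obtain ⟨y1, hy1⟩ := hsurj (Multiplicative.ofAdd (1, 0))
      obtain ⟨y2, hy2⟩ := hsurj (Multiplicative.ofAdd (0, 1))
      have hy1' : ((y1.1.i, y1.1.j) : ZMod 5 × ZMod 5) = (1, 0) := hy1
      have hy2' : ((y2.1.i, y2.1.j) : ZMod 5 × ZMod 5) = (0, 1) := hy2
      have i1 : y1.1.i = 1 := congrArg Prod.fst hy1'
      have j1 : y1.1.j = 0 := congrArg Prod.snd hy1'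
      have i2 : y2.1.i = 0 := congrArg Prod.fst hy2'
      have j2 : y2.1.j = 1 := congrArg Prod.snd hy2'
      have h1 : Nat.card f.ker ≤ 25 := by
        let φ : f.ker → ZMod 5 × ZMod 5 := fun g => (g.1.1.v 0, g.1.1.c)
        have hφ : Function.Injective φ := by
          intro g h hgh
          obtain ⟨gi, gj⟩ := (hf g.1).1 g.2
          obtain ⟨hi', hj'⟩ := (hf h.1).1 h.2
          have c1 := comm_fix gi gj (hA _ g.1.2 _ y1.2)
          have c2 := comm_fix gi gj (hA _ g.1.2 _ y2.2)
          have d1 := comm_fix hi' hj' (hA _ h.1.2 _ y1.2)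
          have d2 := comm_fix hi' hj' (hA _ h.1.2 _ y2.2)
          rw [i1, j1] at c1 d1
          rw [i2, j2] at c2 d2
          obtain ⟨g5, g2, g4, g1⟩ := fix_eq (by decide) c1
          obtain ⟨-, -, -, g3⟩ := fix_eq (by decide) c2
          obtain ⟨h5', h2, h4, h1⟩ := fix_eq (by decide) d1
          obtain ⟨-, -, -, h3⟩ := fix_eq (by decide) d2
          rw [zero_mul, one_mul] at g1 h1
          rw [zero_mul, one_mul] at g3 h3
          have k0 : g.1.1.v 0 = h.1.1.v 0 := congrArg Prod.fst hgh
          have kc : g.1.1.c = h.1.1.c := congrArg Prod.snd hgh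
          apply Subtype.ext
          apply Subtype.ext
          refine PG.ext ?_ kc (gi.trans hi'.symm) (gj.trans hj'.symm)
          funext k
          fin_cases k
          · exact k0
          · exact g3.trans h3.symm
          · exact g2.trans h2.symm
          · exact g1.symm.trans h1
          · exact g4.trans h4.symm
          · exact g5.trans h5'.symm
        have := Nat.card_le_card_of_injective φ hφ
        simpa [Nat.card_prod] using this
      rw [h25]
      calc 25 * Nat.card f.ker ≤ 25 * 25 := Nat.mul_le_mul_left _ h1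
        _ = 5 ^ 4 := by norm_num
  · push Not at hne
    have hall : ∀ g ∈ A, g.i = 0 ∧ g.j = 0 := fun g hg => by
      by_contra hcon
      exact hcon (hne g hg)
    have hr : Nat.card f.range = 1 := by
      rw [Subgroup.card_eq_one, eq_bot_iff]
      rintro _ ⟨g, rfl⟩
      exact (Subgroup.mem_bot).2 ((hf g).2 (hall _ g.2))
    let U : AddSubgroup V6 :=
      { carrier := {v | ∃ g ∈ A, g.v = v}
        zero_mem' := ⟨1, A.one_mem, rfl⟩
        add_mem' := by
          rintro _ _ ⟨g, hg, rfl⟩ ⟨h, hh, rfl⟩
          refine ⟨g * h, A.mul_mem hg hh, ?_⟩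
          rw [PG.mul_v, (hall g hg).1, (hall g hg).2, act_one]
        neg_mem' := by
          rintro _ ⟨g, hg, rfl⟩
          refine ⟨g⁻¹, A.inv_mem hg, ?_⟩
          rw [PG.inv_v, (hall g hg).1, (hall g hg).2, neg_zero, act_one] }
    have hU : Nat.card U ≤ 5 ^ 3 := card_isotropic U (by
      rintro _ ⟨g, hg, rfl⟩ _ ⟨h, hh, rfl⟩
      exact comm_om (hall g hg).1 (hall g hg).2 (hall h hh).1 (hall h hh).2 (hA g hg h hh))
    have h1 : Nat.card f.ker ≤ Nat.card (U × ZMod 5) := by
      let φ : f.ker → U × ZMod 5 := fun g => (⟨g.1.1.v, g.1.1, g.1.2, rfl⟩, g.1.1.c)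
      have hφ : Function.Injective φ := by
        intro g h hgh
        obtain ⟨gi, gj⟩ := (hf g.1).1 g.2
        obtain ⟨hi', hj'⟩ := (hf h.1).1 h.2
        have kv : g.1.1.v = h.1.1.v := congrArg (fun p => p.1.1) hgh
        have kc : g.1.1.c = h.1.1.c := congrArg Prod.snd hgh
        apply Subtype.ext
        apply Subtype.ext
        exact PG.ext kv kc (gi.trans hi'.symm) (gj.trans hj'.symm)
      exact Nat.card_le_card_of_injective φ hφ
    rw [Nat.card_prod, Nat.card_zmod] at h1
    rw [hr, one_mul]
    calc Nat.card f.ker ≤ Nat.card U * 5 := h1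
      _ ≤ 5 ^ 3 * 5 := Nat.mul_le_mul_right _ hU
      _ = 5 ^ 4 := by norm_num

end Cfsg.Agent.H411.M5
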