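import Cfsg.Agent.H777.M5.PGSub
import Cfsg.Agent.H411.M5.Abel

/-!
# Facts about the subgroups `SW`, `SC`, `SL`, `SA`, `SN`, `SV` of `PG` (helper411, task S5230-P1)
-/

set_option autoImplicit false
set_option linter.unusedSimpArgs false

namespace Cfsg.Agent.H411.M5

open Cfsg.Agent.H777.M5 Cfsg.Agent.H777.M5.PG
open scoped commutatorElement

/-! ### orders -/

/-- coordinates of `SL` -/
def equivSL : ↥SL ≃ ZMod 5 × ZMod 5 where
  toFun y := (y.1.v 0, y.1.c)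
  invFun p := ⟨⟨![p.1, 0, 0, 0, 0, 0], p.2, 0, 0⟩, ⟨rfl, rfl, rfl, rfl, rfl, rfl, rfl⟩⟩
  left_inv y := by
    obtain ⟨h1, h2, h3, h4, h5, h6, h7⟩ := mem_SL.1 y.2
    apply Subtype.ext
    refine PG.ext ?_ rfl h1.symm h2.symm
    funext k
    fin_cases k
    · rfl
    · exact h3.symm
    · exact h4.symm
    · exact h5.symm
    · exact h6.symm
    · exact h7.symm
  right_inv p := rfl

theorem card_SL : Nat.card ↥SL = 5 ^ 2 := by
  rw [Nat.card_congr equivSL, Nat.card_prod, Nat.card_zmod]; rfl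

/-- coordinates of `SA` -/
def equivSA : ↥SA ≃ ZMod 5 × ZMod 5 × ZMod 5 × ZMod 5 where
  toFun y := (y.1.v 0, y.1.v 1, y.1.v 3, y.1.c)
  invFun p := ⟨⟨![p.1, p.2.1, 0, p.2.2.1, 0, 0], p.2.2.2, 0, 0⟩, ⟨rfl, rfl, rfl, rfl, rfl⟩⟩
  left_inv y := by
    obtain ⟨h1, h2, h3, h4, h5⟩ := mem_SA.1 y.2
    apply Subtype.ext
    refine PG.ext ?_ rfl h1.symm h2.symm
    funext k
    fin_cases k
    · rfl
    · rfl
    · exact h3.symm
    · rfl
    · exact h4.symm
    · exact h5.symm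
  right_inv p := rfl

theorem card_SA : Nat.card ↥SA = 5 ^ 4 := by
  rw [Nat.card_congr equivSA, Nat.card_prod, Nat.card_prod, Nat.card_prod, Nat.card_zmod]; rfl

/-- coordinates of `SW` -/
def equivSW : ↥SW ≃ V6 × ZMod 5 where
  toFun y := (y.1.v, y.1.c)
  invFun p := ⟨⟨p.1, p.2, 0, 0⟩, ⟨rfl, rfl⟩⟩
  left_inv y := by
    obtain ⟨h1, h2⟩ := mem_SW.1 y.2
    apply Subtype.ext
    exact PG.ext rfl rfl h1.symm h2.symm
  right_inv p := rfl

theorem card_SW : Nat.card ↥SW = 5 ^ 7 := by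
  rw [Nat.card_congr equivSW, Nat.card_prod, Nat.card_pi, Nat.card_zmod]; rfl

theorem SC_eq_ker : SC = lastHom.ker := by
  ext y; exact Iff.rfl

theorem card_SC : Nat.card ↥SC = 5 ^ 8 := by rw [SC_eq_ker, card_ker]

/-- coordinates of `SN` -/
def equivSN : ↥SN ≃ ZMod 5 × ZMod 5 × ZMod 5 × ZMod 5 × ZMod 5 × ZMod 5 where
  toFun y := (y.1.v 0, y.1.v 1, y.1.v 3, y.1.c, y.1.i, y.1.j)
  invFun p := ⟨⟨![p.1, p.2.1, p.2.2.2.2.2, p.2.2.1, 2 * p.2.2.2.2.1, 0], p.2.2.2.1, p.2.2.2.2.1, p.2.2.2.2.2⟩,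
    ⟨rfl, rfl, rfl⟩⟩
  left_inv y := by
    obtain ⟨h1, h2, h3⟩ := mem_SN.1 y.2
    apply Subtype.ext
    refine PG.ext ?_ rfl rfl rfl
    funext k
    fin_cases k
    · rfl
    · rfl
    · exact h3.symm
    · rfl
    · exact h2.symm
    · exact h1.symm
  right_inv p := rfl

theorem card_SN : Nat.card ↥SN = 5 ^ 6 := by
  rw [Nat.card_congr equivSN, Nat.card_prod, Nat.card_prod, Nat.card_prod, Nat.card_prod, Nat.card_prod,
    Nat.card_zmod]; rfl

/-- coordinates of `SV` -/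
def equivSV : ↥SV ≃ ZMod 5 × ZMod 5 × ZMod 5 × ZMod 5 where
  toFun y := (y.1.v 0, y.1.c, y.1.i, y.1.j)
  invFun p := ⟨⟨![p.1, 2 * p.2.2.2 - 2 * p.2.2.2 ^ 2 - p.2.2.1 ^ 2, p.2.2.2, -p.2.2.1 + 2 * (p.2.2.1 * p.2.2.2),
    2 * p.2.2.1, 0], p.2.1, p.2.2.1, p.2.2.2⟩, ⟨rfl, rfl, rfl, rfl, rfl⟩⟩
  left_inv y := by
    obtain ⟨h1, h2, h3, h4, h5⟩ := mem_SV.1 y.2
    apply Subtype.ext
    refine PG.ext ?_ rfl rfl rfl
    funext k
    fin_cases k
    · rfl
    · exact h4.symm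
    · exact h3.symm
    · exact h5.symm
    · exact h2.symm
    · exact h1.symm
  right_inv p := rfl

theorem card_SV : Nat.card ↥SV = 5 ^ 4 := by
  rw [Nat.card_congr equivSV, Nat.card_prod, Nat.card_prod, Nat.card_prod, Nat.card_zmod]; rfl

/-! ### inclusions -/

theorem SL_le_SA : SL ≤ SA := fun y hy => by
  obtain ⟨h1, h2, h3, h4, h5, h6, h7⟩ := mem_SL.1 hy
  exact mem_SA.2 ⟨h1, h2, h4, h6, h7⟩

theorem SA_le_SN : SA ≤ SN := fun y hy => by
  obtain ⟨h1, h2, h3, h4, h5⟩ := mem_SA.1 hy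
  exact mem_SN.2 ⟨h5, by rw [h4, h1, mul_zero], by rw [h3, h2]⟩

theorem SV_le_SN : SV ≤ SN := fun y hy => by
  obtain ⟨h1, h2, h3, -, -⟩ := mem_SV.1 hy
  exact mem_SN.2 ⟨h1, h2, h3⟩

theorem SL_le_SV : SL ≤ SV := fun y hy => by
  obtain ⟨h1, h2, h3, h4, h5, h6, h7⟩ := mem_SL.1 hy
  exact mem_SV.2 ⟨h7, by rw [h6, h1, mul_zero], by rw [h4, h2], by rw [h3, h1, h2]; ring, by rw [h5, h1, h2]; ring⟩

theorem SN_le_SC : SN ≤ SC := fun _ hy => (mem_SN.1 hy).1

theorem SA_le_SW : SA ≤ SW := fun _ hy => ⟨(mem_SA.1 hy).1, (mem_SA.1 hy).2.1⟩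

theorem mem_SL_iff {y : PG} : y ∈ SL ↔ (∃ c, y.v = Pi.single 0 c) ∧ y.i = 0 ∧ y.j = 0 := by
  rw [mem_SL]
  constructor
  · rintro ⟨h1, h2, h3, h4, h5, h6, h7⟩
    refine ⟨⟨y.v 0, ?_⟩, h1, h2⟩
    funext k
    fin_cases k
    · simp
    · simpa using h3
    · simpa using h4
    · simpa using h5
    · simpa using h6
    · simpa using h7
  · rintro ⟨⟨c, hc⟩, h1, h2⟩
    rw [hc]
    exact ⟨h1, h2, by simp, by simp, by simp, by simp, by simp⟩

theorem SL_eq_Z2 : SL = Subgroup.upperCentralSeries PG 2 := by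
  ext y
  rw [mem_SL_iff, mem_Z2]

/-! ### commutators -/

theorem comm_coord (x y : PG) : (x * y * x⁻¹ * y⁻¹).i = 0 ∧ (x * y * x⁻¹ * y⁻¹).j = 0 ∧
    (x * y * x⁻¹ * y⁻¹).v = (x * y).v - (y * x).v := by
  have e : (x * y * x⁻¹ * y⁻¹) * (y * x) = x * y := by group
  have ei : (x * y * x⁻¹ * y⁻¹).i = 0 := by
    have := congrArg PG.i e
    rw [PG.mul_i _ (y * x), PG.mul_i y x, PG.mul_i x y] at this
    linear_combination this
  have ej : (x * y * x⁻¹ * y⁻¹).j = 0 := by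
    have := congrArg PG.j e
    rw [PG.mul_j _ (y * x), PG.mul_j y x, PG.mul_j x y] at this
    linear_combination this
  refine ⟨ei, ej, ?_⟩
  have := congrArg PG.v e
  rw [PG.mul_v _ (y * x), ei, ej, act_one] at this
  exact eq_sub_of_add_eq this

theorem conj_coord {x : PG} (g : PG) (hi : x.i = 0) (hj : x.j = 0) : (g * x * g⁻¹).i = 0 ∧ (g * x * g⁻¹).j = 0 ∧
    (g * x * g⁻¹).v = act g.i g.j x.v := by
  have e : (g * x * g⁻¹) * g = g * x := by group
  have ei : (g * x * g⁻¹).i = 0 := by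
    have := congrArg PG.i e
    rw [PG.mul_i _ g, PG.mul_i g x, hi] at this
    linear_combination this
  have ej : (g * x * g⁻¹).j = 0 := by
    have := congrArg PG.j e
    rw [PG.mul_j _ g, PG.mul_j g x, hj] at this
    linear_combination this
  refine ⟨ei, ej, ?_⟩
  have := congrArg PG.v e
  rw [PG.mul_v _ g, ei, ej, act_one, PG.mul_v g x, add_comm] at this
  exact add_left_cancel this

/-- `SA` is commutative -/
theorem SA_comm {x y : PG} (hx : x ∈ SA) (hy : y ∈ SA) : x * y = y * x := by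
  obtain ⟨h1, h2, h3, h4, h5⟩ := mem_SA.1 hx
  obtain ⟨k1, k2, k3, k4, k5⟩ := mem_SA.1 hy
  apply PG.ext
  · rw [PG.mul_v, PG.mul_v, h1, h2, k1, k2, act_one, act_one, add_comm]
  · rw [PG.mul_c, PG.mul_c, h1, h2, k1, k2, act_one, act_one]
    simp only [om, h3, h4, h5, k3, k4, k5]
    ring
  · rw [PG.mul_i, PG.mul_i, add_comm]
  · rw [PG.mul_j, PG.mul_j, add_comm]

/-- `SV` is commutative -/
theorem SV_comm {x y : PG} (hx : x ∈ SV) (hy : y ∈ SV) : x * y = y * x := by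
  obtain ⟨h1, h2, h3, h4, h5⟩ := mem_SV.1 hx
  obtain ⟨k1, k2, k3, k4, k5⟩ := mem_SV.1 hy
  apply PG.ext
  · funext k
    rw [PG.mul_v, PG.mul_v, Pi.add_apply, Pi.add_apply]
    fin_cases k
    · show x.v 0 + act x.i x.j y.v 0 = y.v 0 + act y.i y.j x.v 0
      rw [act0, act0, h1, h2, h3, h4, h5, k1, k2, k3, k4, k5]
      ring
    · show x.v 1 + act x.i x.j y.v 1 = y.v 1 + act y.i y.j x.v 1
      rw [act1, act1, h1, h2, h3, h4, k1, k2, k3, k4]
      ring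
    · show x.v 2 + act x.i x.j y.v 2 = y.v 2 + act y.i y.j x.v 2
      rw [act2, act2, h1, k1]
      ring
    · show x.v 3 + act x.i x.j y.v 3 = y.v 3 + act y.i y.j x.v 3
      rw [act3, act3, h1, h2, h3, h5, k1, k2, k3, k5]
      ring
    · show x.v 4 + act x.i x.j y.v 4 = y.v 4 + act y.i y.j x.v 4
      rw [act4, act4, h1, h2, k1, k2]
      ring
    · show x.v 5 + act x.i x.j y.v 5 = y.v 5 + act y.i y.j x.v 5
      rw [act5, act5, h1, k1]
  · rw [PG.mul_c, PG.mul_c, om, om]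
    rw [act0, act1, act2, act3, act4, act5, act0, act1, act2, act3, act4, act5]
    simp only [h1, h2, h3, h4, h5, k1, k2, k3, k4, k5]
    linear_combination (-6 * x.j * y.i + 6 * x.j ^ 2 * y.i + 6 * x.i * y.j - 6 * x.i * y.j ^ 2) * H411.M5.h5
  · rw [PG.mul_i, PG.mul_i, add_comm]
  · rw [PG.mul_j, PG.mul_j, add_comm]

instance SA_normal : SA.Normal where
  conj_mem x hx g := by
    obtain ⟨h1, h2, h3, h4, h5⟩ := mem_SA.1 hx
    obtain ⟨e1, e2, e3⟩ := conj_coord g h1 h2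
    refine mem_SA.2 ⟨e1, e2, ?_, ?_, ?_⟩
    · rw [e3, act2, h3, h5]; ring
    · rw [e3, act4, h4, h5]; ring
    · rw [e3, act5, h5]

instance SL_normal : SL.Normal where
  conj_mem x hx g := by
    obtain ⟨⟨c, hc⟩, h1, h2⟩ := mem_SL_iff.1 hx
    obtain ⟨e1, e2, e3⟩ := conj_coord g h1 h2
    exact mem_SL_iff.2 ⟨⟨c, by rw [e3, hc, act_single_zero]⟩, e1, e2⟩

instance SW_normal : SW.Normal where
  conj_mem x hx g := by
    obtain ⟨h1, h2⟩ := mem_SW.1 hx
    obtain ⟨e1, e2, e3⟩ := conj_coord g h1 h2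
    exact ⟨e1, e2⟩

instance SC_normal : SC.Normal := by rw [SC_eq_ker]; infer_instance

theorem comm_SC_mem {x y : PG} (hx : x ∈ SC) (hy : y ∈ SC) : x * y * x⁻¹ * y⁻¹ ∈ SA := by
  have h1 := mem_SC.1 hx
  have k1 := mem_SC.1 hy
  obtain ⟨e1, e2, e3⟩ := comm_coord x y
  refine mem_SA.2 ⟨e1, e2, ?_, ?_, ?_⟩
  · rw [e3, Pi.sub_apply, PG.mul_v, PG.mul_v, Pi.add_apply, Pi.add_apply, act2, act2, h1, k1]; ring
  · rw [e3, Pi.sub_apply, PG.mul_v, PG.mul_v, Pi.add_apply, Pi.add_apply, act4, act4, h1, k1]; ring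
  · rw [e3, Pi.sub_apply, PG.mul_v, PG.mul_v, Pi.add_apply, Pi.add_apply, act5, act5, h1, k1]; ring

/-- `[PG, PG] ≤ SW` -/
theorem comm_mem_SW (x y : PG) : x * y * x⁻¹ * y⁻¹ ∈ SW := ⟨(comm_coord x y).1, (comm_coord x y).2.1⟩

/-- `[SA, PG] ≤ SL` -/
theorem comm_SA_mem {x : PG} (y : PG) (hx : x ∈ SA) : x * y * x⁻¹ * y⁻¹ ∈ SL := by
  obtain ⟨h1, h2, h3, h4, h5⟩ := mem_SA.1 hx
  obtain ⟨e1, e2, e3⟩ := comm_coord x y
  refine mem_SL.2 ⟨e1, e2, ?_, ?_, ?_, ?_, ?_⟩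
  · rw [e3, Pi.sub_apply, PG.mul_v, PG.mul_v, Pi.add_apply, Pi.add_apply, h1, h2, act_one, act1, h3, h4, h5]; ring
  · rw [e3, Pi.sub_apply, PG.mul_v, PG.mul_v, Pi.add_apply, Pi.add_apply, h1, h2, act_one, act2, h3, h5]; ring
  · rw [e3, Pi.sub_apply, PG.mul_v, PG.mul_v, Pi.add_apply, Pi.add_apply, h1, h2, act_one, act3, h3, h4, h5]; ring
  · rw [e3, Pi.sub_apply, PG.mul_v, PG.mul_v, Pi.add_apply, Pi.add_apply, h1, h2, act_one, act4, h4, h5]; ring
  · rw [e3, Pi.sub_apply, PG.mul_v, PG.mul_v, Pi.add_apply, Pi.add_apply, h1, h2, act_one, act5, h5]; ring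

theorem comm_SA_SC_mem {x y : PG} (hx : x ∈ SA) (_hy : y ∈ SC) : x * y * x⁻¹ * y⁻¹ ∈ SL := comm_SA_mem y hx

/-- `SA` is the preimage of the centre of `SC / SL` -/
theorem mem_SA_of_comm {y : PG} (hy : y ∈ SC) (h : ∀ c ∈ SC, y * c * y⁻¹ * c⁻¹ ∈ SL) : y ∈ SA := by
  have h5 := mem_SC.1 hy
  have g1 := mem_SL.1 (h ⟨Pi.single 2 1, 0, 0, 0⟩ rfl)
  have g2 := mem_SL.1 (h ⟨0, 0, 0, 1⟩ rfl)
  obtain ⟨-, -, a1, -, a3, -, -⟩ := g1
  obtain ⟨-, -, b1, -, b3, -, -⟩ := g2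
  rw [(comm_coord _ _).2.2] at a1 a3 b1 b3
  simp only [Pi.sub_apply, PG.mul_v, Pi.add_apply, act_one, act_zero, Pi.zero_apply, act1, act3] at a1 a3 b1 b3
  simp at a1 a3
  have hj : y.j = 0 := by linear_combination a1
  have hi : y.i = 0 := a3.resolve_left (by decide)
  have h2 : y.v 2 = 0 := by rw [h5] at b1; linear_combination -b1
  have h4 : y.v 4 = 0 := by rw [h5] at b3; linear_combination -b3
  exact mem_SA.2 ⟨hi, hj, h2, h4, h5⟩

theorem comm_SN_mem {x y : PG} (hx : x ∈ SN) (hy : y ∈ SN) : x * y * x⁻¹ * y⁻¹ ∈ SL := by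
  obtain ⟨h1, h2, h3⟩ := mem_SN.1 hx
  obtain ⟨k1, k2, k3⟩ := mem_SN.1 hy
  obtain ⟨e1, e2, e3⟩ := comm_coord x y
  refine mem_SL.2 ⟨e1, e2, ?_, ?_, ?_, ?_, ?_⟩
  · rw [e3, Pi.sub_apply, PG.mul_v, PG.mul_v, Pi.add_apply, Pi.add_apply, act1, act1, h1, h2, h3, k1, k2, k3]; ring
  · rw [e3, Pi.sub_apply, PG.mul_v, PG.mul_v, Pi.add_apply, Pi.add_apply, act2, act2, h1, k1]; ring
  · rw [e3, Pi.sub_apply, PG.mul_v, PG.mul_v, Pi.add_apply, Pi.add_apply, act3, act3, h1, h2, h3, k1, k2, k3]; ring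
  · rw [e3, Pi.sub_apply, PG.mul_v, PG.mul_v, Pi.add_apply, Pi.add_apply, act4, act4, h1, k1]; ring
  · rw [e3, Pi.sub_apply, PG.mul_v, PG.mul_v, Pi.add_apply, Pi.add_apply, act5, act5, h1, k1]; ring

/-- `SL` centralizes `SC` -/
theorem SL_comm {x y : PG} (hx : x ∈ SL) (hy : y ∈ SC) : x * y = y * x := by
  rw [SL_eq_Z2] at hx
  have h := mem_centralizer_Z2.2 (mem_SC.1 hy)
  exact (Subgroup.mem_centralizer_iff.1 h) x hx

/-- only `SC` centralizes `SL` -/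
theorem mem_SC_of_comm {y : PG} (h : ∀ x ∈ SL, x * y = y * x) : y ∈ SC := by
  rw [mem_SC, ← mem_centralizer_Z2, ← SL_eq_Z2]
  exact Subgroup.mem_centralizer_iff.2 h

theorem commutator_SC_le : ⁅SC, SC⁆ ≤ SA := by
  rw [Subgroup.commutator_le]
  intro x hx y hy
  rw [commutatorElement_def]
  exact comm_SC_mem hx hy

theorem commutator_SA_SC_le : ⁅SA, SC⁆ ≤ SL := by
  rw [Subgroup.commutator_le]
  intro x hx y hy
  rw [commutatorElement_def]
  exact comm_SA_SC_mem hx hy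

theorem commutator_SN_le : ⁅SN, SN⁆ ≤ SL := by
  rw [Subgroup.commutator_le]
  intro x hx y hy
  rw [commutatorElement_def]
  exact comm_SN_mem hx hy

/-! ### the coordinates of `CG` -/

theorem phi_mem_SC (z : CG) : phi z ∈ SC := rfl

theorem exists_phi {y : PG} (hy : y ∈ SC) : ∃ z, phi z = y := by
  have h : y ∈ phiHom.range := by rw [range_phiHom]; exact hy
  exact h

theorem phi_mem_SN {z : CG} : phi z ∈ SN ↔ z.al = 0 := by
  rw [mem_SN, phi_v5, phi_v4, phi_v2, phi_i, phi_j, f4, f2]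
  constructor
  · rintro ⟨-, h1, h2⟩
    apply K25.ext
    · show z.al.re = 0
      linear_combination 2 * h2 + z.al.re * H411.M5.h5
    · show z.al.im = 0
      linear_combination 3 * h1 + (2 * z.al.im - 3 * z.be.im) * H411.M5.h5
  · intro h
    rw [h]
    refine ⟨rfl, ?_, ?_⟩
    · simp only [K25.zero_im]
      linear_combination z.be.im * H411.M5.h5
    · simp only [K25.zero_re]
      ring

theorem phi_mem_SL {z : CG} : phi z ∈ SL ↔ z.al = 0 ∧ z.ga = 0 ∧ z.be = 0 := by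
  constructor
  · intro h
    have h1 := phi_mem_SN.1 (SA_le_SN (SL_le_SA h))
    obtain ⟨a1, a2, a3, a4, a5, a6, a7⟩ := mem_SL.1 h
    rw [phi_v1, f1, h1] at a3
    rw [phi_v3, f3, h1] at a5
    rw [phi_i, h1] at a1
    rw [phi_j, h1] at a2
    simp only [K25.zero_re, K25.zero_im] at a1 a2 a3 a5
    have b1 : z.be.re = 0 := by linear_combination a2
    have b2 : z.be.im = 0 := by linear_combination 2 * a1 + z.be.im * H411.M5.h5
    rw [b1, b2] at a3 a5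
    refine ⟨h1, K25.ext ?_ ?_, K25.ext b1 b2⟩
    · show z.ga.re = 0
      linear_combination 2 * a3 + z.ga.re * H411.M5.h5
    · show z.ga.im = 0
      linear_combination 2 * a5 + z.ga.im * H411.M5.h5
  · rintro ⟨h1, h2, h3⟩
    rw [mem_SL, phi_i, phi_j, phi_v1, phi_v2, phi_v3, phi_v4, phi_v5, f1, f2, f3, f4, h1, h2, h3]
    simp

theorem phi_mem_SA {z : CG} : phi z ∈ SA ↔ z.al = 0 ∧ z.be = 0 := by
  constructor
  · intro h
    have h1 := phi_mem_SN.1 (SA_le_SN h)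
    obtain ⟨a1, a2, -, -, -⟩ := mem_SA.1 h
    rw [phi_i, h1] at a1
    rw [phi_j, h1] at a2
    simp only [K25.zero_re, K25.zero_im] at a1 a2
    exact ⟨h1, K25.ext (by show z.be.re = 0; linear_combination a2)
      (by show z.be.im = 0; linear_combination 2 * a1 + z.be.im * H411.M5.h5)⟩
  · rintro ⟨h1, h3⟩
    rw [mem_SA, phi_i, phi_j, phi_v2, phi_v4, phi_v5, f2, f4, h1, h3]
    simp

theorem phi_mem_SV {z : CG} : phi z ∈ SV ↔ z.al = 0 ∧ z.ga = 0 := by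
  constructor
  · intro h
    have h1 := phi_mem_SN.1 (SV_le_SN h)
    obtain ⟨-, -, -, a4, a5⟩ := mem_SV.1 h
    rw [phi_v1, phi_i, phi_j, f1, h1] at a4
    rw [phi_v3, phi_i, phi_j, f3, h1] at a5
    simp only [K25.zero_re, K25.zero_im] at a4 a5
    refine ⟨h1, K25.ext ?_ ?_⟩
    · show z.ga.re = 0
      linear_combination 2 * a4 + (z.ga.re - 2 * z.be.im ^ 2) * H411.M5.h5
    · show z.ga.im = 0
      linear_combination 2 * a5 + (z.ga.im - 2 * z.be.im * z.be.re) * H411.M5.h5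
  · rintro ⟨h1, h2⟩
    rw [mem_SV, phi_i, phi_j, phi_v1, phi_v2, phi_v3, phi_v4, phi_v5, f1, f2, f3, f4, h1, h2]
    refine ⟨rfl, ?_⟩
    simp only [K25.zero_re, K25.zero_im]
    refine ⟨?_, ?_, ?_, ?_⟩
    · linear_combination z.be.im * H411.M5.h5
    · ring
    · linear_combination z.be.im ^ 2 * H411.M5.h5
    · linear_combination z.be.im * z.be.re * H411.M5.h5

/-- commuting elements of `SN` -/
theorem comm_iff {z z' : CG} (h : z.al = 0) (h' : z'.al = 0) :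
    phi z * phi z' = phi z' * phi z ↔ z.be * z'.ga = z'.be * z.ga := by
  rw [← phi_mul, ← phi_mul]
  constructor
  · intro H
    have H' : phiHom (z * z') = phiHom (z' * z) := H
    have h1 := congrArg CG.de (phiHom_injective H')
    rw [CG.mul_de, CG.mul_de, h, h'] at h1
    simp only [K25.cj_zero, mul_zero, zero_mul, add_zero, ne_eq, OfNat.ofNat_ne_zero, not_false_eq_true, zero_pow] at h1
    linear_combination h1
  · intro H
    congr 1
    apply CG.ext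
    · rw [CG.mul_al, CG.mul_al, add_comm]
    · rw [CG.mul_ga, CG.mul_ga, h, h', K25.cj_zero]
      ring
    · rw [CG.mul_de, CG.mul_de, h, h']
      simp only [K25.cj_zero, mul_zero, zero_mul, add_zero, ne_eq, OfNat.ofNat_ne_zero, not_false_eq_true, zero_pow]
      linear_combination H
    · rw [CG.mul_be, CG.mul_be, add_comm]

/-- **(H), first part** -/
theorem SN_comm_of {y x x' : PG} (hy : y ∈ SN) (hyL : y ∉ SL) (hx : x ∈ SN) (hx' : x' ∈ SN) (h : x * y = y * x)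
    (h' : x' * y = y * x') : x * x' = x' * x := by
  obtain ⟨z, rfl⟩ := exists_phi (SN_le_SC hy)
  obtain ⟨a, rfl⟩ := exists_phi (SN_le_SC hx)
  obtain ⟨a', rfl⟩ := exists_phi (SN_le_SC hx')
  have hz := phi_mem_SN.1 hy
  have ha := phi_mem_SN.1 hx
  have ha' := phi_mem_SN.1 hx'
  rw [comm_iff ha hz] at h
  rw [comm_iff ha' hz] at h'
  rw [comm_iff ha ha']
  by_cases hb : z.be = 0
  · have hg : z.ga ≠ 0 := fun hg => hyL (phi_mem_SL.2 ⟨hz, hg, hb⟩)
    rw [hb, zero_mul] at h h'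
    rw [(mul_eq_zero.1 h).resolve_right hg, (mul_eq_zero.1 h').resolve_right hg, zero_mul, zero_mul]
  · apply mul_left_cancel₀ hb
    linear_combination a'.be * h - a.be * h'

/-- two elements of `SN` which do not commute: the common centralizer in `SN` is `SL` -/
theorem mem_SL_of_comm {y y' x : PG} (hy : y ∈ SN) (hy' : y' ∈ SN) (hne : y * y' ≠ y' * y) (hx : x ∈ SN)
    (h : x * y = y * x) (h' : x * y' = y' * x) : x ∈ SL := by
  by_contra hxL
  exact hne (SN_comm_of hx hxL hy hy' h.symm h'.symm)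

/-- **(H), second part** -/
theorem card_centralizer_SN {y : PG} (hy : y ∈ SN) (hyL : y ∉ SL) :
    Nat.card ↥(SN ⊓ Subgroup.centralizer {y}) = 5 ^ 4 := by
  obtain ⟨z, rfl⟩ := exists_phi (SN_le_SC hy)
  have hz := phi_mem_SN.1 hy
  have hne : ¬ (z.ga = 0 ∧ z.be = 0) := fun h => hyL (phi_mem_SL.2 ⟨hz, h⟩)
  let ψ : K25 × K25 → ↥(SN ⊓ Subgroup.centralizer {phi z}) := fun p =>
    ⟨phi ⟨0, p.1 * z.ga, p.2, p.1 * z.be⟩, phi_mem_SN.2 rfl, by
      show phi ⟨0, p.1 * z.ga, p.2, p.1 * z.be⟩ ∈ Subgroup.centralizer {phi z}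
      rw [Subgroup.mem_centralizer_singleton_iff]
      rw [comm_iff (z := ⟨0, p.1 * z.ga, p.2, p.1 * z.be⟩) (z' := z) rfl hz]
      show p.1 * z.be * z.ga = z.be * (p.1 * z.ga)
      ring⟩
  have hψ : Function.Bijective ψ := by
    constructor
    · intro p p' hpp
      have h1 : phiHom ⟨0, p.1 * z.ga, p.2, p.1 * z.be⟩ = phiHom ⟨0, p'.1 * z.ga, p'.2, p'.1 * z.be⟩ :=
        congrArg Subtype.val hpp
      have h2 := phiHom_injective h1
      have h3 : p.1 * z.ga = p'.1 * z.ga := congrArg CG.ga h2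
      have h4 : p.1 * z.be = p'.1 * z.be := congrArg CG.be h2
      have h5 : p.2 = p'.2 := congrArg CG.de h2
      have h6 : p.1 = p'.1 := by
        by_cases hg : z.ga = 0
        · exact mul_right_cancel₀ (fun hb => hne ⟨hg, hb⟩) h4
        · exact mul_right_cancel₀ hg h3
      exact Prod.ext h6 h5
    · rintro ⟨x, hx, hxc⟩
      obtain ⟨a, rfl⟩ := exists_phi (SN_le_SC hx)
      have ha := phi_mem_SN.1 hx
      have hxc : phi a ∈ Subgroup.centralizer {phi z} := hxc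
      rw [Subgroup.mem_centralizer_singleton_iff, comm_iff ha hz] at hxc
      by_cases hg : z.ga = 0
      · have hb : z.be ≠ 0 := fun hb => hne ⟨hg, hb⟩
        rw [hg, mul_zero] at hxc
        have hag : a.ga = 0 := (mul_eq_zero.1 hxc.symm).resolve_left hb
        refine ⟨(a.be / z.be, a.de), Subtype.ext ?_⟩
        show phi ⟨0, a.be / z.be * z.ga, a.de, a.be / z.be * z.be⟩ = phi a
        congr 1
        refine CG.ext ha.symm ?_ rfl ?_
        · show a.be / z.be * z.ga = a.ga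
          rw [hg, hag, mul_zero]
        · show a.be / z.be * z.be = a.be
          exact div_mul_cancel₀ _ hb
      · refine ⟨(a.ga / z.ga, a.de), Subtype.ext ?_⟩
        show phi ⟨0, a.ga / z.ga * z.ga, a.de, a.ga / z.ga * z.be⟩ = phi a
        congr 1
        refine CG.ext ha.symm ?_ rfl ?_
        · show a.ga / z.ga * z.ga = a.ga
          exact div_mul_cancel₀ _ hg
        · show a.ga / z.ga * z.be = a.be
          rw [div_mul_eq_mul_div, div_eq_iff hg]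
          linear_combination -hxc
  rw [← Nat.card_congr (Equiv.ofBijective ψ hψ), Nat.card_prod, Nat.card_eq_fintype_card, K25.card_K]
  norm_num

end Cfsg.Agent.H411.M5
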